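import Groth.Prelude.Def_ArtFun2

set_option autoImplicit false

universe u v

open CategoryTheory

namespace Groth.Agent.Lib.Helper19

open ArtFun ArtFun.Art

variable {Λ : Type u} {k : Type u} [CommRing Λ] [Field k] [Algebra Λ k]

section FibreLift

variable {B A A' A'' : Art Λ k} {p' : B ⟶ A'} {p'' : B ⟶ A''} {f' : A' ⟶ A} {f'' : A'' ⟶ A}
  (h : IsFibreProd p' p'' f' f'')
  {R : Type u} [CommRing R] [Algebra Λ R] (g' : R →ₐ[Λ] A') (g'' : R →ₐ[Λ] A'')
  (hg : ∀ r, f' (g' r) = f'' (g'' r))

/-- pointwise lift into a pinned fibre product -/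
noncomputable def fibLiftFun (r : R) : B := Classical.choose (h.surj (g' r) (g'' r) (hg r))

theorem fibLiftFun_spec (r : R) :
    p' (fibLiftFun h g' g'' hg r) = g' r ∧ p'' (fibLiftFun h g' g'' hg r) = g'' r :=
  Classical.choose_spec (h.surj (g' r) (g'' r) (hg r))

theorem fibLift_eq {r : R} {b : B} (h1 : p' b = g' r) (h2 : p'' b = g'' r) :
    fibLiftFun h g' g'' hg r = b :=
  h.inj _ _ ((fibLiftFun_spec h g' g'' hg r).1.trans h1.symm)
    ((fibLiftFun_spec h g' g'' hg r).2.trans h2.symm)

/-- the lift of two compatible algebra maps into a pinned fibre product -/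
noncomputable def fibLift : R →ₐ[Λ] B where
  toFun := fibLiftFun h g' g'' hg
  map_one' := fibLift_eq h g' g'' hg (by rw [map_one, map_one]) (by rw [map_one, map_one])
  map_mul' x y := fibLift_eq h g' g'' hg
    (by
      change p'.toAlgHom (_ * _) = _
      rw [map_mul, map_mul]
      exact congrArg₂ (· * ·) (fibLiftFun_spec h g' g'' hg x).1 (fibLiftFun_spec h g' g'' hg y).1)
    (by
      change p''.toAlgHom (_ * _) = _
      rw [map_mul, map_mul]
      exact congrArg₂ (· * ·) (fibLiftFun_spec h g' g'' hg x).2 (fibLiftFun_spec h g' g'' hg y).2)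
  map_zero' := fibLift_eq h g' g'' hg (by rw [map_zero, map_zero]) (by rw [map_zero, map_zero])
  map_add' x y := fibLift_eq h g' g'' hg
    (by
      change p'.toAlgHom (_ + _) = _
      rw [map_add, map_add]
      exact congrArg₂ (· + ·) (fibLiftFun_spec h g' g'' hg x).1 (fibLiftFun_spec h g' g'' hg y).1)
    (by
      change p''.toAlgHom (_ + _) = _
      rw [map_add, map_add]
      exact congrArg₂ (· + ·) (fibLiftFun_spec h g' g'' hg x).2 (fibLiftFun_spec h g' g'' hg y).2)
  commutes' c := fibLift_eq h g' g'' hg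
    (by
      change p'.toAlgHom (algebraMap Λ B c) = _
      rw [AlgHom.commutes, AlgHom.commutes])
    (by
      change p''.toAlgHom (algebraMap Λ B c) = _
      rw [AlgHom.commutes, AlgHom.commutes])

theorem fibLift_fst : p'.toAlgHom.comp (fibLift h g' g'' hg) = g' :=
  AlgHom.ext fun r => (fibLiftFun_spec h g' g'' hg r).1

theorem fibLift_snd : p''.toAlgHom.comp (fibLift h g' g'' hg) = g'' :=
  AlgHom.ext fun r => (fibLiftFun_spec h g' g'' hg r).2

end FibreLift

/-- the residue map as a point of `h_R(k)` -/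
def baseHom {R : Type u} [CommRing R] [Algebra Λ R] (resR : R →ₐ[Λ] k) : HomSet R resR (base Λ k) :=
  ⟨resR, AlgHom.id_comp _⟩

theorem homSet_base_subsingleton {R : Type u} [CommRing R] [Algebra Λ R] (resR : R →ₐ[Λ] k)
    (φ : HomSet R resR (base Λ k)) : φ = baseHom resR := by
  apply Subtype.ext
  have := φ.2
  exact this

/-- a versal family of a functor with one point over `k` is surjective on every object -/
theorem versal_surjective {R : Type u} [CommRing R] [Algebra Λ R] {resR : R →ₐ[Λ] k}
    {F : Art Λ k ⥤ Type v} (h0 : H0 F) (ξ : Family R resR F) (hξ : IsVersal ξ) (A : Art Λ k) :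
    Function.Surjective (ξ.app A) := by
  intro y
  have := h0.2
  obtain ⟨ψ, -, hψ⟩ := hξ (toBase A) A.res_surjective (baseHom resR) y (Subsingleton.elim _ _)
  exact ⟨ψ, hψ⟩

end Groth.Agent.Lib.Helper19
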