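import Groth.Prelude.Def_ArtFun3
import Mathlib.RingTheory.HopkinsLevitzki

set_option autoImplicit false

universe u v

open CategoryTheory

namespace Groth.Agent.Lib.Helper19

open ArtFun ArtFun.Art

variable {Λ : Type u} {k : Type u} [CommRing Λ] [Field k] [Algebra Λ k]

theorem art_isIso_of_bijective {A B : Art Λ k} (f : B ⟶ A) (hf : Function.Bijective f) :
    IsIso f := by
  let e := AlgEquiv.ofBijective f.toAlgHom hf
  have he : ∀ b, e b = f b := fun b => rfl
  let g : A ⟶ B := ⟨e.symm.toAlgHom, by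
    apply AlgHom.ext; intro a
    change B.res (e.symm a) = A.res a
    have h1 := res_app f (e.symm a)
    rw [← he, e.apply_symm_apply] at h1
    exact h1.symm⟩
  refine ⟨⟨g, ?_, ?_⟩⟩
  · apply hom_ext; apply AlgHom.ext; intro b; exact e.symm_apply_apply b
  · apply hom_ext; apply AlgHom.ext; intro a; exact e.apply_symm_apply a

theorem ker_le_maximalIdeal {A B : Art Λ k} (f : B ⟶ A) :
    RingHom.ker f.toAlgHom ≤ IsLocalRing.maximalIdeal B := by
  intro b hb
  rw [mem_maximalIdeal_iff, ← res_app f b]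
  rw [RingHom.mem_ker] at hb
  change A.res (f.toAlgHom b) = 0
  rw [hb, map_zero]

/-- a socle element of `K` modulo `J` -/
theorem exists_socle_elt (B : Art Λ k) (J K : Ideal B) (hJK : J < K) :
    ∃ x, x ∈ K ∧ x ∉ J ∧ ∀ y ∈ IsLocalRing.maximalIdeal B, y * x ∈ J := by
  classical
  obtain ⟨N, hN⟩ := IsArtinianRing.isNilpotent_jacobson_bot (R := B)
  rw [IsLocalRing.jacobson_eq_maximalIdeal ⊥ bot_ne_top] at hN
  have hex : ∃ n, IsLocalRing.maximalIdeal B ^ n * K ≤ J :=
    ⟨N, by rw [hN, Ideal.zero_eq_bot, Ideal.bot_mul]; exact bot_le⟩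
  obtain ⟨n₀, hn₀, hmin⟩ : ∃ n₀, IsLocalRing.maximalIdeal B ^ n₀ * K ≤ J ∧
      ∀ m < n₀, ¬ IsLocalRing.maximalIdeal B ^ m * K ≤ J :=
    ⟨Nat.find hex, Nat.find_spec hex, fun m hm => Nat.find_min hex hm⟩
  have h0 : n₀ ≠ 0 := by
    rintro rfl
    rw [pow_zero, Ideal.one_eq_top, Ideal.top_mul] at hn₀
    exact (not_le_of_gt hJK) hn₀
  obtain ⟨i, hi⟩ := Nat.exists_eq_succ_of_ne_zero h0
  have hnot := hmin i (by rw [hi]; exact Nat.lt_succ_self i)
  rw [hi] at hn₀
  obtain ⟨x, hx, hxJ⟩ := SetLike.not_le_iff_exists.1 hnot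
  have hxK : x ∈ K := (Ideal.mul_le_right (I := IsLocalRing.maximalIdeal B ^ i) (J := K)) hx
  refine ⟨x, hxK, hxJ, fun y hy => ?_⟩
  have h1 : y * x ∈ IsLocalRing.maximalIdeal B * (IsLocalRing.maximalIdeal B ^ i * K) :=
    Ideal.mul_mem_mul hy hx
  have h2 : IsLocalRing.maximalIdeal B * (IsLocalRing.maximalIdeal B ^ i * K) =
      IsLocalRing.maximalIdeal B ^ (i + 1) * K := by
    rw [pow_succ', mul_assoc]
  rw [h2] at h1
  exact hn₀ h1

theorem ker_quotMk (B : Art Λ k) (J : Ideal B) (hJ : J ≤ IsLocalRing.maximalIdeal B) :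
    RingHom.ker (quotMk B J hJ).toAlgHom = J := by
  ext b
  rw [RingHom.mem_ker]
  exact Ideal.Quotient.eq_zero_iff_mem

/-- the transition map between two quotients -/
noncomputable def quotTrans (B : Art Λ k) {J J' : Ideal B} (hJ : J ≤ IsLocalRing.maximalIdeal B)
    (hJ' : J' ≤ IsLocalRing.maximalIdeal B) (hle : J ≤ J') : quot B J hJ ⟶ quot B J' hJ' :=
  quotFactor hJ (quotMk B J' hJ') (by rw [ker_quotMk]; exact hle)

theorem quotTrans_mk (B : Art Λ k) {J J' : Ideal B} (hJ : J ≤ IsLocalRing.maximalIdeal B)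
    (hJ' : J' ≤ IsLocalRing.maximalIdeal B) (hle : J ≤ J') (b : B) :
    quotTrans B hJ hJ' hle (Ideal.Quotient.mk J b) = Ideal.Quotient.mk J' b := rfl

theorem quotTrans_isSmallExt (B : Art Λ k) {J : Ideal B} (x : B) (hxJ : x ∉ J)
    (hmx : ∀ y ∈ IsLocalRing.maximalIdeal B, y * x ∈ J)
    (hJ : J ≤ IsLocalRing.maximalIdeal B)
    (hJ' : J ⊔ Ideal.span {x} ≤ IsLocalRing.maximalIdeal B) :
    IsSmallExt (quotTrans B hJ hJ' le_sup_left) := by
  set g := quotTrans B hJ hJ' le_sup_left with hg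
  set q := (quotMk B J hJ).toAlgHom with hq
  set q' := (quotMk B (J ⊔ Ideal.span {x}) hJ').toAlgHom with hq'
  have hq0 : ∀ a, q a = 0 ↔ a ∈ J := fun a => Ideal.Quotient.eq_zero_iff_mem
  have hq'0 : ∀ a, q' a = 0 ↔ a ∈ J ⊔ Ideal.span {x} := fun a => Ideal.Quotient.eq_zero_iff_mem
  have hgq : ∀ a, g.toAlgHom (q a) = q' a := fun a => rfl
  have hqs : Function.Surjective q := quotMk_surjective B J hJ
  have hker : RingHom.ker g.toAlgHom = Ideal.span {q x} := by
    ext z
    obtain ⟨b, rfl⟩ := hqs z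
    rw [RingHom.mem_ker, hgq, hq'0, Ideal.mem_span_singleton']
    constructor
    · intro hb
      obtain ⟨j, hj, s, hs, rfl⟩ := Submodule.mem_sup.1 hb
      obtain ⟨c, rfl⟩ := Ideal.mem_span_singleton'.1 hs
      refine ⟨q c, ?_⟩
      rw [← map_mul, map_add, (hq0 j).2 hj, zero_add]
    · rintro ⟨c, hc⟩
      obtain ⟨c', rfl⟩ := hqs c
      rw [← map_mul] at hc
      have hc2 : c' * x - b ∈ J := by rw [← hq0, map_sub, hc, sub_self]
      have h1 : c' * x ∈ J ⊔ Ideal.span {x} :=
        Ideal.mem_sup_right (Ideal.mul_mem_left _ _ (Ideal.mem_span_singleton_self x))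
      have h2 : c' * x - b ∈ J ⊔ Ideal.span {x} := Ideal.mem_sup_left hc2
      have := Ideal.sub_mem _ h1 h2
      simpa using this
  refine ⟨?_, ?_, ?_, ?_⟩
  · intro z
    obtain ⟨b, rfl⟩ := quotMk_surjective B _ hJ' z
    exact ⟨q b, rfl⟩
  · rw [hker]
    intro h
    have : q x ∈ Ideal.span {q x} := Ideal.mem_span_singleton_self _
    rw [h, Ideal.mem_bot, hq0] at this
    exact hxJ this
  · rw [hker]; exact ⟨⟨_, rfl⟩⟩
  · rw [hker, eq_bot_iff, Ideal.mul_le]
    intro r hr s hs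
    obtain ⟨y, rfl⟩ := hqs r
    obtain ⟨c, rfl⟩ := Ideal.mem_span_singleton'.1 hs
    have hy : y ∈ IsLocalRing.maximalIdeal B := by
      rw [mem_maximalIdeal_iff]
      have := ((quot B J hJ).mem_maximalIdeal_iff (q y)).1 hr
      exact this
    rw [Ideal.mem_bot]
    obtain ⟨c', rfl⟩ := hqs c
    rw [← map_mul, ← map_mul, hq0]
    have := hmx y hy
    have e : y * (c' * x) = c' * (y * x) := by ring
    rw [e]
    exact Ideal.mul_mem_left _ _ this

/-- every surjection of `Art Λ k` is a composite of isomorphisms and small extensions -/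
theorem surj_induction
    (P : ∀ ⦃A B : Art Λ k⦄, (B ⟶ A) → Prop)
    (hiso : ∀ ⦃A B : Art Λ k⦄ (e : B ⟶ A), IsIso e → P e)
    (hsmall : ∀ ⦃A B : Art Λ k⦄ (p : B ⟶ A), IsSmallExt p → P p)
    (hcomp : ∀ ⦃A B C : Art Λ k⦄ (p : C ⟶ B) (q : B ⟶ A), P p → P q → P (p ≫ q))
    ⦃A B : Art Λ k⦄ (f : B ⟶ A) (hf : Function.Surjective f) : P f := by
  classical
  have hKm := ker_le_maximalIdeal f
  have key : ∀ J : Ideal B, ∀ (hJK : J ≤ RingHom.ker f.toAlgHom),
      P (quotFactor (le_trans hJK hKm) f hJK) := by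
    intro J
    induction J using WellFoundedGT.induction with
    | _ J ih =>
      intro hJK
      by_cases hJ : J = RingHom.ker f.toAlgHom
      · apply hiso
        apply art_isIso_of_bijective
        constructor
        · intro z w hzw
          obtain ⟨a, rfl⟩ := quotMk_surjective B J (le_trans hJK hKm) z
          obtain ⟨b, rfl⟩ := quotMk_surjective B J (le_trans hJK hKm) w
          change f a = f b at hzw
          have : a - b ∈ J := by rw [hJ, RingHom.mem_ker, map_sub, sub_eq_zero]; exact hzw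
          exact Ideal.Quotient.eq.2 this
        · intro a
          obtain ⟨b, rfl⟩ := hf a
          exact ⟨quotMk B J (le_trans hJK hKm) b, rfl⟩
      · have hlt : J < RingHom.ker f.toAlgHom := lt_of_le_of_ne hJK hJ
        obtain ⟨x, hxK, hxJ, hmx⟩ := exists_socle_elt B J _ hlt
        have hJ'K : J ⊔ Ideal.span {x} ≤ RingHom.ker f.toAlgHom :=
          sup_le hJK (Ideal.span_le.2 (Set.singleton_subset_iff.2 hxK))
        have hJJ' : J < J ⊔ Ideal.span {x} :=
          lt_of_le_of_ne le_sup_left (fun h => hxJ (h ▸ Ideal.mem_sup_right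
            (Ideal.mem_span_singleton_self x)))
        have hP := ih _ hJJ' hJ'K
        have hfac : quotTrans B (le_trans hJK hKm) (le_trans hJ'K hKm) le_sup_left ≫
            quotFactor (le_trans hJ'K hKm) f hJ'K = quotFactor (le_trans hJK hKm) f hJK := by
          apply hom_ext; apply AlgHom.ext; intro z
          obtain ⟨b, rfl⟩ := quotMk_surjective B J (le_trans hJK hKm) z
          rfl
        rw [← hfac]
        exact hcomp _ _ (hsmall _ (quotTrans_isSmallExt B x hxJ hmx _ _)) hP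
  have h0 := key ⊥ bot_le
  have hi : IsIso (quotMk B ⊥ (le_trans bot_le hKm)) := by
    apply art_isIso_of_bijective
    constructor
    · intro a b hab
      have h1 : a - b ∈ (⊥ : Ideal B) := Ideal.Quotient.eq.1 hab
      rw [Ideal.mem_bot, sub_eq_zero] at h1
      exact h1
    · exact quotMk_surjective B ⊥ _
  have e : quotMk B ⊥ (le_trans bot_le hKm) ≫ quotFactor (le_trans bot_le hKm) f bot_le = f :=
    quotMk_quotFactor _ _ _
  rw [← e]
  exact hcomp _ _ (hiso _ hi) h0

end Groth.Agent.Lib.Helper19
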